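import Mathlib
import Cfsg.Agent.Base
import Cfsg.Agent.Lib.LieSpec.Exist

/-! Minimal polynomials of the elements of the Weyl group of type `F₄`. -/

set_option autoImplicit false

namespace H61
open H38 H37 Cfsg Cfsg.Lie Matrix

/-- The root system of type `F₄`. -/
def RF : RS (Fin 48) (Fin 4) := rsF4.toRS

theorem f4T : chevF4 ∈ Tabs := by simp

/-- Product of matrices of size four. -/
def mul4 (A B : Matrix (Fin 4) (Fin 4) ℤ) : Matrix (Fin 4) (Fin 4) ℤ :=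
  Matrix.of fun i j => A i 0 * B 0 j + A i 1 * B 1 j + A i 2 * B 2 j + A i 3 * B 3 j

theorem mul4_eq (A B : Matrix (Fin 4) (Fin 4) ℤ) : mul4 A B = A * B := by
  ext i j; simp [mul4, Matrix.mul_apply, Fin.sum_univ_four]

/-- Determinant of matrices of size four. -/
def det4 (A : Matrix (Fin 4) (Fin 4) ℤ) : ℤ :=
  (A 0 0 * A 1 1 - A 0 1 * A 1 0) * (A 2 2 * A 3 3 - A 2 3 * A 3 2) -
  (A 0 0 * A 1 2 - A 0 2 * A 1 0) * (A 2 1 * A 3 3 - A 2 3 * A 3 1) +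
  (A 0 0 * A 1 3 - A 0 3 * A 1 0) * (A 2 1 * A 3 2 - A 2 2 * A 3 1) +
  (A 0 1 * A 1 2 - A 0 2 * A 1 1) * (A 2 0 * A 3 3 - A 2 3 * A 3 0) -
  (A 0 1 * A 1 3 - A 0 3 * A 1 1) * (A 2 0 * A 3 2 - A 2 2 * A 3 0) +
  (A 0 2 * A 1 3 - A 0 3 * A 1 2) * (A 2 0 * A 3 1 - A 2 1 * A 3 0)

theorem det4_eq (A : Matrix (Fin 4) (Fin 4) ℤ) : A.det = det4 A := by
  simp [det_succ_row_zero, Fin.sum_univ_succ, det4, Fin.succAbove]; ring

/-- The possible minimal polynomials. -/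
def Ann (N : Matrix (Fin 4) (Fin 4) ℤ) : Prop :=
  mul4 (mul4 N N) (mul4 N N) = 1 ∨ mul4 (mul4 N N) (mul4 N N) + mul4 (mul4 N N) N = N + 1 ∨
    mul4 (mul4 N N) (mul4 N N) + N = mul4 (mul4 N N) N + 1 ∨
    (det4 N = 1 ∧ (mul4 (mul4 N N) (mul4 N N) = -1 ∨ mul4 (mul4 N N) (mul4 N N) + 1 = mul4 N N))

instance (N : Matrix (Fin 4) (Fin 4) ℤ) : Decidable (Ann N) := by unfold Ann; infer_instance

theorem RF_A : ∀ b c, RF.pair b c = -2 → ∀ a, RF.pair a b = -1 → RF.pair a c = 0 →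
    ∀ d, RF.pair d c = -1 → RF.pair d b = 0 → RF.pair d a = 0 →
      Ann (Matrix.of fun i j => RF.rt (![a, b, c, d] j) i) := by
  decide +kernel

end H61
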