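import Mathlib
import Cfsg.Agent.Base
import Cfsg.Agent.Lib.LieSpec.F4Tab

/-! The prime graph of the groups `F₄(q)`. -/

set_option autoImplicit false

namespace H61
open H38 H37 Cfsg Cfsg.Lie Matrix

section
variable {Γ : Type*} [CommGroup Γ] {q : ℕ}

theorem dvd_of_ann {n : ℕ} {N : Matrix (Fin n) (Fin n) ℤ} {d : Fin n → Γ} (h : mact N d ^ q = d)
    (m3 m2 m1 m0 : ℤ) (hm : N ^ 4 + m3 • N ^ 3 + m2 • N ^ 2 + m1 • N + m0 • 1 = 0) :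
    (orderOf d : ℤ) ∣ 1 + m3 * q + m2 * q ^ 2 + m1 * q ^ 3 + m0 * q ^ 4 := by
  have hk : ∀ k, mact (((q : ℤ) • N) ^ k) d = d := fun k => by
    induction k with
    | zero => rw [pow_zero, mact_one]
    | succ k ih => rw [pow_succ, ← mact_mact, ih, mact_zsmul, zpow_natCast, h]
  have e : ((q : ℤ) • N) ^ 4 + (m3 * q) • ((q : ℤ) • N) ^ 3 + (m2 * q ^ 2) • ((q : ℤ) • N) ^ 2 +
      (m1 * q ^ 3) • ((q : ℤ) • N) ^ 1 + (m0 * q ^ 4) • ((q : ℤ) • N) ^ 0 = (0 : ℤ) • 1 := by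
    have := congrArg ((q : ℤ) ^ 4 • ·) hm
    simp only [smul_zero] at this
    rw [zero_smul, ← this]
    simp only [smul_pow, pow_one, pow_zero]
    module
  have := congrArg (mact · d) e
  simp only [mact_add, mact_zsmul, hk, zpow_zero] at this
  rw [orderOf_dvd_iff_zpow_eq_one]
  simpa only [_root_.zpow_add, zpow_one] using this

variable {c : Fin 4 → Γ} {w : Equiv.Perm (Fin 48)}

theorem dvd_F4 (hw : w ∈ RF.W) (h : mact (cmat RF w) c = c ^ q) {o : ℤ}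
    (ho : o = orderOf (fun j => chi RF (RF.sim j) c)) :
    o ∣ (q + 1) * (q ^ 3 - 1) ∨ o ∣ q ^ 4 - 1 ∨ o ∣ (q - 1) * (q ^ 3 + 1) ∨
      ((rmat RF w).det = 1 ∧ (o ∣ q ^ 4 + 1 ∨ o ∣ q ^ 4 - q ^ 2 + 1)) := by
  have h1 := RF_A (w (RF.sim 1)) (w (RF.sim 2)) (by rw [RF.pair_W hw]; decide +kernel)
    (w (RF.sim 0)) (by rw [RF.pair_W hw]; decide +kernel) (by rw [RF.pair_W hw]; decide +kernel)
    (w (RF.sim 3)) (by rw [RF.pair_W hw]; decide +kernel) (by rw [RF.pair_W hw]; decide +kernel)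
    (by rw [RF.pair_W hw]; decide +kernel)
  have h2 : (Matrix.of fun i j => RF.rt (![w (RF.sim 0), w (RF.sim 1), w (RF.sim 2),
      w (RF.sim 3)] j) i) = rmat RF w := by ext i j; fin_cases j <;> rfl
  have key := dvd_of_ann (mact_rmat hw h)
  rw [h2, Ann, ← det4_eq] at h1
  simp only [mul4_eq] at h1
  generalize rmat RF w = N at *
  rw [← ho, show N ^ 4 = N * N * (N * N) by noncomm_ring, show N ^ 3 = N * N * N by noncomm_ring,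
    sq N] at key
  rcases h1 with e | e | e | ⟨e', e | e⟩
  · exact .inr (.inl ((key 0 0 0 (-1) (by rw [e]; module)).trans ⟨-1, by ring⟩))
  · exact .inl ((key 1 0 (-1) (-1) (by rw [eq_sub_of_add_eq e]; module)).trans ⟨-1, by ring⟩)
  · exact .inr (.inr (.inl ((key (-1) 0 1 (-1) (by rw [eq_sub_of_add_eq e]; module)).trans
      ⟨-1, by ring⟩)))
  · exact .inr (.inr (.inr ⟨e', .inl ((key 0 0 0 1 (by rw [e]; module)).trans ⟨1, by ring⟩)⟩))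
  · exact .inr (.inr (.inr ⟨e', .inr ((key 0 (-1) 0 1 (by rw [eq_sub_of_add_eq e]; module)).trans
      ⟨1, by ring⟩)⟩))

theorem dvd_F4_of_chi (hw : w ∈ RF.W) (h : mact (cmat RF w) c = c ^ q) {o : ℤ}
    (ho : o = orderOf (fun j => chi RF (RF.sim j) c)) {r : Fin 48} (hr : chi RF r c = 1) :
    o ∣ (q + 1) * (q ^ 3 - 1) ∨ o ∣ q ^ 4 - 1 ∨ o ∣ (q - 1) * (q ^ 3 + 1) := by
  have h1 := dvd_F4 hw h ho
  have h2 := dvd_F4 (mul_mem hw (RF.refl_mem_W r)) (q := q) (by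
    rw [cmat_mul hw, ← mact_mact, mact_refl hr, h]) ho
  rw [rmat_mul hw, det_mul, det_rmat_refl] at h2
  by_contra h
  simp only [not_or] at h
  simp only [h, false_or] at h1 h2
  omega

end

theorem ord_iff {r : ℕ} (hr : r.Prime) (h2 : r ≠ 2) (q : ℕ) {e : ℕ} (he : orderOf (q : ZMod r) = e) :
    ((r : ℤ) ∣ (q + 1) * (q ^ 3 - 1) ↔ e ∣ 2 ∨ e ∣ 3) ∧ ((r : ℤ) ∣ q ^ 4 - 1 ↔ e ∣ 4) ∧
    ((r : ℤ) ∣ (q - 1) * (q ^ 3 + 1) ↔ e ∣ 6 ∧ (e ∣ 3 → e ∣ 1)) ∧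
    ((r : ℤ) ∣ q ^ 4 + 1 ↔ e ∣ 8 ∧ ¬ e ∣ 4) ∧
    ((r : ℤ) ∣ q ^ 4 - q ^ 2 + 1 ↔ e ∣ 12 ∧ ¬ e ∣ 6 ∧ ¬ e ∣ 4) := by
  have := Fact.mk hr
  simp only [← he, orderOf_dvd_iff_pow_eq_one, ← ZMod.intCast_zmod_eq_zero_iff_dvd]
  push_cast
  have t : (2 : ZMod r) ≠ 0 := fun h => h2 ((Nat.prime_dvd_prime_iff_eq hr Nat.prime_two).1
    ((ZMod.natCast_eq_zero_iff 2 r).1 h))
  have t3 : ∀ x : ZMod r, 3 = (0 : ZMod r) → x ^ 3 = x := fun x h => by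
    obtain rfl : r = 3 := (Nat.prime_dvd_prime_iff_eq hr Nat.prime_three).1
      ((ZMod.natCast_eq_zero_iff 3 r).1 h)
    exact ZMod.pow_card x
  specialize t3 q
  generalize (q : ZMod r) = x at *
  refine ⟨by grind, by grind, by grind, by grind, by grind, fun ⟨h1, h2, h3⟩ => ?_⟩
  have : (x ^ 6 - 1) * ((x ^ 4 - 1) * (x ^ 4 - x ^ 2 + 1)) = 0 := by
    linear_combination (x ^ 2 - 1) * h1
  simpa [sub_eq_zero, h2, h3] using this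

variable {F : Type*} [Field F] [Fintype F] {p a : ℕ} (hp : p.Prime) (ha : 1 ≤ a)
  (hF : Fintype.card F = p ^ a) {q : ℤ} (hq : (p ^ a : ℕ) = q)
include hp ha hF hq

omit ha in
theorem f4_dvd (g : chevF4.group F) : ∃ o e : ℕ, orderOf g = o * p ^ e ∧ ¬ p ∣ o ∧
    ((o : ℤ) ∣ (q + 1) * (q ^ 3 - 1) ∨ (o : ℤ) ∣ q ^ 4 - 1 ∨ (o : ℤ) ∣ (q - 1) * (q ^ 3 + 1) ∨
      (e = 0 ∧ ((o : ℤ) ∣ q ^ 4 + 1 ∨ (o : ℤ) ∣ q ^ 4 - q ^ 2 + 1))) := by
  subst hq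
  have := Fact.mk hp
  have : CharP F p := charP_of_card_eq_prime_pow hF
  obtain ⟨c, w, hw, u, hu, e, h1, h2, h3, h4⟩ :=
    exists_data f4T rsF4 smithF4 (AlgebraicClosure F) hF g
  have ho : (orderOf c : ℤ) = orderOf (fun j => chi RF (RF.sim j) c) :=
    congrArg _ (orderOf_chi rsF4 smithF4 c).symm
  refine ⟨_, e, h3, h4, ?_⟩
  by_cases hS : ∃ r, chi RF r c = 1
  · obtain ⟨r, hr⟩ := hS
    exact (dvd_F4_of_chi (c := c) hw h1 ho hr).imp_right (Or.imp_right .inl)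
  · have : u = 1 := by
      rw [← Subgroup.mem_bot, ← (EG f4T rsF4 _).XS_empty]
      exact PreElts.mem_XS_mono _ hu fun r hr => hS ⟨r, hr.1⟩
    rw [this, orderOf_one, eq_comm, Nat.pow_eq_one] at h2
    exact (dvd_F4 (c := c) hw h1 ho).imp_right (Or.imp_right (Or.imp_right fun h =>
      ⟨h2.resolve_left hp.ne_one, h.2⟩))

theorem f4_primes {r s : ℕ} (hr : r.Prime) (hs : s.Prime) (hrs : r ≠ s) (hrp : r ≠ p) (hsp : s ≠ p)
    {T : ℤ} (hT : T ∈ [(q + 1) * (q ^ 3 - 1), q ^ 4 - 1, (q - 1) * (q ^ 3 + 1), q ^ 4 + 1,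
      q ^ 4 - q ^ 2 + 1])
    (h1 : (r : ℤ) ∣ T) (h2 : (s : ℤ) ∣ T) : ∃ g : chevF4.group F, orderOf g = r * s := by
  have key : ∀ (L : List (Fin 4)) (M : Matrix (Fin 4) (Fin 4) ℤ) (ε : ℤ), wmat RF L = M →
      det4 (q • M - 1) = T * ε → ∃ g : chevF4.group F, orderOf g = r * s :=
    fun L M ε hM e => by
      rw [← hM, ← det4_eq, ← hq] at e
      exact exists_primes f4T rsF4 smithF4 hp ha hF L hr hs hrs hrp hsp (h1.trans ⟨ε, e⟩)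
        (h2.trans ⟨ε, e⟩)
  simp only [List.mem_cons, List.not_mem_nil, or_false] at hT
  rcases hT with rfl | rfl | rfl | rfl | rfl
  · exact key [0, 1, 3] !![0, 1, 0, 0; -1, -1, 0, 0; 1, 1, 1, 1; 0, 0, 0, -1] (-1)
      (by decide +kernel) (by simp [det4, -zsmul_eq_mul]; ring)
  · exact key [0, 1, 2, 1, 2] !![1, 2, 2, 0; -1, -1, 0, 0; 0, 0, -1, 0; 1, 1, 2, 1] (-1)
      (by decide +kernel) (by simp [det4, -zsmul_eq_mul]; ring)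
  · exact key [0, 1, 2] !![0, 1, 0, 0; 1, 1, 2, 0; -1, -1, -1, 0; 1, 1, 1, 1] (-1)
      (by decide +kernel) (by simp [det4, -zsmul_eq_mul]; ring)
  · exact key [0, 1, 2, 1, 2, 3] !![1, 2, 2, 0; -1, -1, 0, 0; 1, 1, 1, 1; -1, -1, -2, -1] 1
      (by decide +kernel) (by simp [det4, -zsmul_eq_mul]; ring)
  · exact key [0, 1, 2, 3] !![0, 1, 0, 0; 1, 1, 2, 0; 0, 0, 0, 1; -1, -1, -1, -1] 1
      (by decide +kernel) (by simp [det4, -zsmul_eq_mul]; ring)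

theorem f4_prime_mul {s : ℕ} (hs : s.Prime) (hsp : s ≠ p)
    (h : (s : ℤ) ∣ (q + 1) * (q ^ 3 - 1) ∨ (s : ℤ) ∣ q ^ 4 - 1 ∨ (s : ℤ) ∣ (q - 1) * (q ^ 3 + 1)) :
    ∃ g : chevF4.group F, orderOf g = p * s := by
  by_cases h1 : s ∣ p ^ a - 1
  · refine exists_cyc_mul f4T rsF4 smithF4 hp ha hF [] (by
      rw [Nat.prime_dvd_prime_iff_eq hp hs]; exact hsp.symm) ![1, 0, 0, 0] (0 : Fin 4) rfl ?_
      (47 : Fin 48) rfl (show ∀ j : Fin 4, RF.wt 47 j ≠ 0 → ![1, 0, 0, 0] j = (0 : ℤ) by decide +kernel)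
    change ∀ j : Fin 4, (s : ℤ) ∣ _ * (![1, 0, 0, 0] ᵥ* wmat RF []) j - ![1, 0, 0, 0] j
    rw [show wmat RF [] = 1 by decide +kernel, vecMul_one]
    have := Int.natCast_dvd_natCast.2 h1
    rw [Nat.cast_sub (Nat.one_le_pow _ _ hp.pos)] at this
    intro j; fin_cases j <;> simp_all
  have key : ∀ (L : List (Fin 4)) (M : Matrix (Fin 4) (Fin 4) ℤ) (T : ℤ), wmat RF L = M →
      L.foldr RF.σ 47 = 47 → det4 (q • M - 1) = T → (s : ℤ) ∣ T →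
      ∃ g : chevF4.group F, orderOf g = p * s := fun L M T hM hL e h => by
    rw [← e, ← hM, ← det4_eq, ← hq] at h
    exact exists_prime_mul f4T rsF4 smithF4 hp ha hF L hs hsp h h1 (47 : Fin 48) hL
  have h4 : (s : ℤ) ∣ q ^ 4 - 1 → ∃ g : chevF4.group F, orderOf g = p * s := fun h =>
    key [0, 1, 2, 1, 2] !![1, 2, 2, 0; -1, -1, 0, 0; 0, 0, -1, 0; 1, 1, 2, 1] _
      (by decide +kernel) (by decide +kernel) (by simp [det4, -zsmul_eq_mul]; ring) (dvd_neg.2 h)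
  rcases h with h | h | h
  · rcases (Nat.prime_iff_prime_int.1 hs).dvd_or_dvd h with h | h
    · exact h4 (h.trans ⟨(q - 1) * (q ^ 2 + 1), by ring⟩)
    · exact key [0, 1] !![0, 1, 0, 0; -1, -1, 0, 0; 1, 1, 1, 0; 0, 0, 0, 1] _ (by decide +kernel)
        (by decide +kernel) (by simp [det4, -zsmul_eq_mul]; ring) (h.mul_left (q - 1))
  · exact h4 h
  · exact key [0, 1, 2] !![0, 1, 0, 0; 1, 1, 2, 0; -1, -1, -1, 0; 1, 1, 1, 1] _ (by decide +kernel)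
      (by decide +kernel) (by simp [det4, -zsmul_eq_mul]; ring) (dvd_neg.2 h)

end H61
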