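import Mathlib
import Cfsg.Agent.Base
import Cfsg.Agent.Lib.Spec.Basic

/-! Groups of unbounded order with a given prime graph. -/

set_option autoImplicit false

namespace H61

theorem unbounded_primeGraph {k G V : Type*} [CommSemiring k] [Group G] [AddCommGroup V] [Module k V]
    [Finite G] [Finite V] [Nontrivial V] (ρ : Representation k G V) {p : ℕ} (hp : p.Prime)
    (hV : ∀ v : V, p • v = 0) (hG : p ∣ Nat.card G)
    (h : ∀ g : G, (orderOf g).Prime → orderOf g ≠ p →
      (∃ x : G, orderOf x = orderOf g * p) ∨ ∀ v, ρ g v = v → v = 0) (N : ℕ) :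
    ∃ (H : Type) (_ : Group H) (_ : Finite H), N < Nat.card H ∧
      (∀ r : ℕ, r.Prime → (r ∣ Nat.card G ↔ r ∣ Nat.card H)) ∧
      ∀ r s : ℕ, r.Prime → s.Prime → r ≠ s →
        ((∃ g : G, orderOf g = r * s) ↔ ∃ g : H, orderOf g = r * s) := by
  obtain ⟨H, _, _, h1, h2⟩ := H74.Spec.unbounded_of_rep ρ
    {n | ∃ g v, n = orderOf g * addOrderOf (H74.Spec.norm ρ g v)} (fun _ => Iff.rfl) N
  have key : ∀ n, (orderOf (1 : G) * p = n ∨ ¬ p ∣ n ∨ ∃ s, s.Prime ∧ s ≠ p ∧ n = s * p) →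
      ((∃ g : G, orderOf g = n) ↔ ∃ g : H, orderOf g = n) := fun n hn => by
    refine Iff.trans ⟨fun ⟨g, hg⟩ => ⟨g, 0, by simp [H74.Spec.norm, hg]⟩, ?_⟩
      (Set.ext_iff.1 h2 n).symm
    rintro ⟨g, v, rfl⟩
    rcases (Nat.dvd_prime hp).1 (addOrderOf_dvd_of_nsmul_eq_zero (hV (H74.Spec.norm ρ g v))) with
      e | e
    · exact ⟨g, by rw [e, mul_one]⟩
    rw [e] at hn ⊢
    have := Fact.mk hp
    rcases hn with hn | hn | ⟨s, hs, hsp, hn⟩
    · rw [← hn, orderOf_one, one_mul]; exact exists_prime_orderOf_dvd_card' p hG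
    · exact absurd (dvd_mul_left _ _) hn
    · obtain rfl := Nat.eq_of_mul_eq_mul_right hp.pos hn
      refine (h g hs hsp).resolve_right fun h => hp.one_lt.ne ?_
      rw [← e, H74.Spec.norm_eq_zero_of_fpf ρ g h, addOrderOf_zero]
  refine ⟨H, inferInstance, inferInstance, by rwa [Nat.card_eq_fintype_card], fun r hr => ?_,
    fun r s hr hs hrs => key _ (.inr ?_)⟩
  · have := Fact.mk hr
    have := key r (by
      by_cases e : p = r
      · simp [e]
      · exact .inr (.inl fun h => e ((Nat.prime_dvd_prime_iff_eq hp hr).1 h)))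
    constructor <;> intro h
    · obtain ⟨y, rfl⟩ := this.1 (exists_prime_orderOf_dvd_card' r h); exact orderOf_dvd_natCard y
    · obtain ⟨y, rfl⟩ := this.2 (exists_prime_orderOf_dvd_card' r h); exact orderOf_dvd_natCard y
  · by_cases e : p ∣ r * s
    · rcases hp.dvd_mul.1 e with e | e
      · obtain rfl := (Nat.prime_dvd_prime_iff_eq hp hr).1 e
        exact .inr ⟨s, hs, hrs.symm, mul_comm _ _⟩
      · obtain rfl := (Nat.prime_dvd_prime_iff_eq hp hs).1 e
        exact .inr ⟨r, hr, hrs, rfl⟩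
    · exact .inl e

theorem exists_conj_mem_zpowers {G : Type*} [Group G] [Finite G] {p : ℕ} (hp : p.Prime)
    (hG : ¬ p ^ 2 ∣ Nat.card G) {g x : G} (hg : orderOf g = p) (hx : x ^ p = 1) :
    ∃ z : G, z * x * z⁻¹ ∈ Subgroup.zpowers g := by
  have := Fact.mk hp
  have h1 : IsPGroup p (Subgroup.zpowers g) := .of_card (n := 1) (by simp [hg])
  have h2 : ¬ p ∣ (Subgroup.zpowers g).index := fun h => hG (by
    rw [← (Subgroup.zpowers g).card_mul_index, Nat.card_zpowers, hg, sq]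
    exact Nat.mul_dvd_mul_left p h)
  obtain ⟨j, -, hj⟩ := (Nat.dvd_prime_pow hp (m := 1)).1 (by
    simpa using orderOf_dvd_of_pow_eq_one hx)
  obtain ⟨Q, hQ⟩ := (IsPGroup.of_card (G := Subgroup.zpowers x) (p := p) (n := j)
    (by simp [hj])).exists_le_sylow
  obtain ⟨z, hz⟩ := MulAction.exists_smul_eq G Q (h1.toSylow h2)
  have : z * x * z⁻¹ ∈ (z • Q : Sylow p G) :=
    Subgroup.smul_mem_pointwise_smul _ (MulAut.conj z) _ (hQ (Subgroup.mem_zpowers _))
  rw [hz] at this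
  exact ⟨z, this⟩

/-- Counting fixed vectors of an element of prime order. -/
theorem card_ker_modEq {k V : Type*} [CommRing k] [AddCommGroup V] [Module k V] [Finite V]
    {p : ℕ} (hp : p.Prime) {g : V ≃ₗ[k] V} (hg : g ^ p = 1) :
    Nat.card V ≡ Nat.card (LinearMap.eqLocus (g : V →ₗ[k] V) LinearMap.id) [MOD p] := by
  have := Fact.mk hp
  obtain ⟨j, -, hj⟩ := (Nat.dvd_prime_pow hp (m := 1)).1 (by
    simpa using orderOf_dvd_of_pow_eq_one hg)
  convert (IsPGroup.of_card (G := Subgroup.zpowers g) (p := p) (n := j)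
    (by simp [hj])).card_modEq_card_fixedPoints V using 1
  refine Nat.card_congr (Equiv.subtypeEquivRight fun v => ⟨fun h x => ?_, fun h =>
    h ⟨g, Subgroup.mem_zpowers g⟩⟩)
  exact Subgroup.zpowers_le_of_mem (H := MulAction.stabilizer (V ≃ₗ[k] V) v) (g := g) h x.2

end H61
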